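import Cfsg.Agent.Chev.Special.PairCentralizer
import Cfsg.Agent.Chev.Special.F4PairData
import Cfsg.Agent.Chev.InstSmall
import Cfsg.Agent.Chev.Parabolic
import Cfsg.Agent.Chev.TopPair

/-!
# Centralizers of the mixed involutions of `F₄` in characteristic two
-/

set_option autoImplicit false
set_option synthInstance.maxSize 4000
set_option synthInstance.maxHeartbeats 200000

namespace CfsgLib.Chev.F4Pair

open Cfsg.Lie

universe u

/-- A root of `F₄`. -/
abbrev rt (n : ℕ) (h : n < chevF4.nroots := by decide +kernel) : Fin chevF4.nroots := ⟨n, h⟩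

/-- The level of a root of `F₄`. -/
noncomputable def levT (r : ℕ) : ℤ :=
  ∑ i ∈ Finset.range chevF4.rank, DataF4.tbl.wt.getD i 0 * DataF4.tbl.vecAt r i

theorem lev_eq_levT (r : ℕ) : (sysF4.{u}).lev r = levT r := rfl

variable {F : Type u} [Field F] [CharP F 2]

theorem abel_of_check {L : List (Fin chevF4.nroots)}
    (h : ∀ r ∈ L, ∀ s ∈ L, (s : ℕ) ≠ chevF4.neg r ∧ ∀ c ∈ chevF4.commTerms r s, r = s ∨ c.2.1 % 2 = 0) :
    (sysF4.{u}).Abel F L := by
  intro r hr s hs a b
  by_cases e : r = s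
  · subst e
    show _ * _ = _ * _
    rw [Sys.xU_add, Sys.xU_add, add_comm]
  · exact (sysF4.{u}).comm_even r.2 s.2 (h r hr s hs).1
      (fun c hc => ((h r hr s hs).2 c hc).resolve_left e) a b

theorem one_term {r s u : ℕ} {M : ℤ} (hr : r < chevF4.nroots) (hs : s < chevF4.nroots) (h1 : s ≠ r)
    (h2 : s ≠ chevF4.neg r) (hc : chevF4.commTerms r s = [(u, M, 1, 1)]) (hM : M % 2 = 1) (a b : F) :
    (sysF4.{u}).xU r a * (sysF4.{u}).xU s b * ((sysF4.{u}).xU r a)⁻¹ =
      (sysF4.{u}).xU s b * (sysF4.{u}).xU u (a * b) := by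
  rw [Sys.conj_xU_eq _ hr hs h1 h2, ChevalleyDatum.commWord, hc]
  have : (M : F) = 1 := by
    obtain ⟨k, rfl⟩ : ∃ k, M = 2 * k + 1 := ⟨M / 2, by omega⟩
    push_cast
    rw [CharTwo.two_eq_zero, zero_mul, zero_add]
  simp [Sys.wU, this]

theorem conj_comm {r s : ℕ} (hr : r < chevF4.nroots) (hs : s < chevF4.nroots)
    (h2 : s ≠ chevF4.neg r) (hc : ∀ c ∈ chevF4.commTerms r s, c.2.1 % 2 = 0) (a b : F) :
    (sysF4.{u}).xU r a * (sysF4.{u}).xU s b * ((sysF4.{u}).xU r a)⁻¹ = (sysF4.{u}).xU s b := by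
  rw [((sysF4.{u}).comm_even hr hs h2 hc a b).eq, mul_inv_cancel_right]

/-- The two pieces of a root subgroup containment. -/
theorem rootSubgroup_le {i : ℕ} {K : Subgroup (GL chevF4.Idx F)}
    (h : ∀ t : F, (sysF4.{u}).xU i t ∈ K) : chevF4.rootSubgroup F i ≤ K := by
  rw [(sysF4.{u}).rootSubgroup_eq, Subgroup.closure_le]
  rintro _ ⟨t, rfl⟩
  exact h t

omit [CharP F 2] in
theorem xU_mem_root (i : ℕ) (t : F) : (sysF4.{u}).xU i t ∈ chevF4.rootSubgroup F i := by
  rw [(sysF4.{u}).rootSubgroup_eq]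
  exact Subgroup.subset_closure ⟨t, rfl⟩

/-- The centralizer of `x₄₇(1) x₄₄(1)`. -/
theorem centralizer_top (w : GL chevF4.Idx F)
    (hw : (w : Matrix chevF4.Idx chevF4.Idx F) = chevF4.x F 47 1 * chevF4.x F 44 1) :
    chevF4.group F ⊓ Subgroup.centralizer {w} =
      chevF4.posUnipotent F ⊔ chevF4.rootSubgroup F 20 ⊔ chevF4.rootSubgroup F 22 := by
  set S := sysF4.{u}
  have ew : w = S.xU (rt 47 : ℕ) 1 * S.xU (rt 44 : ℕ) 1 := Units.ext (by
    rw [hw, Units.val_mul, Sys.coe_xU, Sys.coe_xU])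
  set K := chevF4.posUnipotent F ⊔ chevF4.rootSubgroup F 20 ⊔ chevF4.rootSubgroup F 22
  have hA : S.Abel F [rt 44, rt 47] := abel_of_check (by decide +kernel)
  have hcen : ∀ r < chevF4.nroots, (24 ≤ r ∨ r = 20 ∨ r = 22) → ∀ t : F,
      S.xU r t ∈ Subgroup.centralizer ({w} : Set (GL chevF4.Idx F)) := by
    intro r hr hr' t
    have h : ∀ r < chevF4.nroots, (24 ≤ r ∨ r = 20 ∨ r = 22) →
        (47 ≠ chevF4.neg r ∧ ∀ c ∈ chevF4.commTerms r 47, r = 47 ∨ c.2.1 % 2 = 0) ∧
        (44 ≠ chevF4.neg r ∧ ∀ c ∈ chevF4.commTerms r 44, r = 44 ∨ c.2.1 % 2 = 0) := by decide +kernel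
    obtain ⟨⟨a1, a2⟩, b1, b2⟩ := h r hr hr'
    refine Subgroup.mem_centralizer_singleton_iff.2 ?_
    rw [ew]
    have c1 : Commute (S.xU r t) (S.xU 47 (1 : F)) := by
      by_cases e : r = 47
      · subst e; show _ * _ = _ * _; rw [Sys.xU_add, Sys.xU_add, add_comm]
      · exact S.comm_even hr (by decide +kernel) a1 (fun c hc => (a2 c hc).resolve_left e) t 1
    have c2 : Commute (S.xU r t) (S.xU 44 (1 : F)) := by
      by_cases e : r = 44
      · subst e; show _ * _ = _ * _; rw [Sys.xU_add, Sys.xU_add, add_comm]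
      · exact S.comm_even hr (by decide +kernel) b1 (fun c hc => (b2 c hc).resolve_left e) t 1
    exact (c1.mul_right c2).eq
  have hKC : K ≤ Subgroup.centralizer ({w} : Set (GL chevF4.Idx F)) := by
    refine sup_le (sup_le ?_ (rootSubgroup_le (hcen 20 (by decide +kernel) (Or.inr (Or.inl rfl)))))
      (rootSubgroup_le (hcen 22 (by decide +kernel) (Or.inr (Or.inr rfl))))
    rw [S.posUnipotent_eq, Sys.tailU, Subgroup.closure_le]
    rintro _ ⟨r, t, h1, h2, rfl⟩
    exact hcen r h2 (Or.inl (le_trans (by decide +kernel) h1)) t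
  have hKG : K ≤ chevF4.group F :=
    sup_le (sup_le S.pos_le_group (rootSubgroup_le fun t => S.xU_mem_group _ _))
      (rootSubgroup_le fun t => S.xU_mem_group _ _)
  have hn : ∀ q ∈ [1, 2], q < chevF4.rank → ∀ t : F, S.nU (chevF4.simple q) t ∈ K := by
    intro q hq hq' t
    refine S.nU_mem_of_roots (fun t => Subgroup.mem_sup_left (Subgroup.mem_sup_left
      (S.xU_mem_posUnipotent (S.simple_pos q hq').1 (S.simple_lt hq') t))) (fun t => ?_) t
    simp only [List.mem_cons, List.not_mem_nil, or_false] at hq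
    rcases hq with rfl | rfl
    · rw [show chevF4.neg (chevF4.simple 1) = 20 by decide +kernel]
      exact Subgroup.mem_sup_left (Subgroup.mem_sup_right (xU_mem_root _ _))
    · rw [show chevF4.neg (chevF4.simple 2) = 22 by decide +kernel]
      exact Subgroup.mem_sup_right (xU_mem_root _ _)
  refine le_antisymm (fun g hg => ?_) (le_inf hKG hKC)
  obtain ⟨hgG, hgC⟩ := Subgroup.mem_inf.1 hg
  obtain ⟨u₁, hu₁, h, hh, m, hm, u₂, hu₂, rfl⟩ := S.centralizer_pair_form (Sl := [rt 44, rt 47])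
    (a := rt 47) (b := rt 44) (by decide +kernel) (fun r hr => by
      show chevF4.nroots / 2 ≤ (r : ℕ)
      revert r; decide +kernel)
    hA (by decide +kernel) (by decide +kernel) (by decide +kernel) (by decide +kernel)
    (P := orbTop) (by decide +kernel) (by decide +kernel) (by decide +kernel) 1 1
    (fun p hp => by
      rw [lev_eq_levT, lev_eq_levT, lev_eq_levT, lev_eq_levT]
      revert p; decide +kernel)
    (J := [1, 2]) (by decide +kernel) (by decide +kernel) (K := K)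
    (fun q hq hq' => hn q hq hq' 1) hgG (ew ▸ hgC)
  have hU : chevF4.posUnipotent F ≤ K := le_sup_of_le_left le_sup_left
  refine mul_mem (mul_mem (mul_mem (hU hu₁) ?_) hm) (hU hu₂)
  have hhC : h ∈ Subgroup.centralizer ({w} : Set (GL chevF4.Idx F)) := by
    have := mul_mem (mul_mem (inv_mem (hKC (hU hu₁))) hgC) (inv_mem (mul_mem (hKC hm) (hKC (hU hu₂))))
    convert this using 1
    group
  rw [S.diagonalSubgroup_eq] at hh
  obtain ⟨c, rfl⟩ := hh
  simp only [MonoidHom.coe_comp, Function.comp_apply, Sys.dgHom_apply] at hhC ⊢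
  refine S.dg_mem_of_coords c fun j hj t => hn j ?_ j.2 t
  have h1 := Subgroup.mem_centralizer_singleton_iff.1 hhC
  rw [← mul_inv_eq_iff_eq_mul, ew] at h1
  have h2 : S.pairEl [rt 44, rt 47]
      ((Pi.single (rt 47) (S.chi (torHom chevF4 c) 47 : F) : Fin chevF4.nroots → F) + Pi.single (rt 44) (S.chi (torHom chevF4 c) 44 : F)) =
      S.pairEl [rt 44, rt 47] ((Pi.single (rt 47) 1 : Fin chevF4.nroots → F) + Pi.single (rt 44) 1) := by
    rw [S.pairEl_pair (by decide +kernel) hA (by decide +kernel) (by decide +kernel),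
      S.pairEl_pair (by decide +kernel) hA (by decide +kernel) (by decide +kernel)]
    conv_rhs => rw [← h1]
    rw [show ∀ x y z : GL chevF4.Idx F, x * (y * z) * x⁻¹ = x * y * x⁻¹ * (x * z * x⁻¹) from
      fun x y z => by group, S.dg_conj_xU _ (rt 47).2, S.dg_conj_xU _ (rt 44).2, mul_one, mul_one]
  have hpos : ∀ r ∈ [rt 44, rt 47], S.Pos r := fun r hr => by
    show chevF4.nroots / 2 ≤ (r : ℕ)
    revert r; decide +kernel
  have e47 := S.pairEl_inj (by decide +kernel) hA hpos h2 (rt 47) (by decide +kernel)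
  have e44 := S.pairEl_inj (by decide +kernel) hA hpos h2 (rt 44) (by decide +kernel)
  have hne : (rt 47 : Fin chevF4.nroots) ≠ rt 44 := by decide +kernel
  simp only [Pi.add_apply, Pi.single_eq_same, Pi.single_eq_of_ne hne, add_zero] at e47
  simp only [Pi.add_apply, Pi.single_eq_same, Pi.single_eq_of_ne hne.symm, zero_add] at e44
  have hc : ∀ j : Fin chevF4.rank, (j : ℕ) = 0 ∨ (j : ℕ) = 3 → c j = 1 := by
    have hv47 : ∀ l : Fin chevF4.rank, chevF4.cartan (l : ℕ) 47 = if (l : ℕ) = 3 then 1 else 0 := by decide +kernel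
    have hv44 : ∀ l : Fin chevF4.rank, chevF4.cartan (l : ℕ) 44 = if (l : ℕ) = 0 then 1 else 0 := by decide +kernel
    rintro j (hj | hj)
    · rw [S.chi_torHom c (rt 44).2, Finset.prod_eq_single j] at e44
      · rw [show ((rt 44 : Fin chevF4.nroots) : ℕ) = 44 from rfl, hv44, if_pos hj, zpow_one] at e44
        exact Units.ext e44
      · intro l _ hl
        rw [show ((rt 44 : Fin chevF4.nroots) : ℕ) = 44 from rfl, hv44,
          if_neg fun e => hl (Fin.ext (e.trans hj.symm)), zpow_zero]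
      · simp
    · rw [S.chi_torHom c (rt 47).2, Finset.prod_eq_single j] at e47
      · rw [show ((rt 47 : Fin chevF4.nroots) : ℕ) = 47 from rfl, hv47, if_pos hj, zpow_one] at e47
        exact Units.ext e47
      · intro l _ hl
        rw [show ((rt 47 : Fin chevF4.nroots) : ℕ) = 47 from rfl, hv47,
          if_neg fun e => hl (Fin.ext (e.trans hj.symm)), zpow_zero]
      · simp
  have hj4 : (j : ℕ) < 4 := j.2
  have : ¬((j : ℕ) = 0 ∨ (j : ℕ) = 3) := fun e => hj (hc j e)
  simp only [List.mem_cons, List.not_mem_nil, or_false]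
  omega

/-- The roots of the generators of the centralizer of `x₃₉(1) x₄₅(1)` in `U`. -/
def cRoot (r : ℕ) : Prop := r ∉ [27, 25, 34, 26]

/-- The radical of the parabolic of type `{p₁, p₄}`. -/
def rRoot (r : ℕ) : Prop := r ≠ 24 ∧ r ≠ 33

instance : DecidablePred cRoot := fun r => inferInstanceAs (Decidable (r ∉ [27, 25, 34, 26]))
instance : DecidablePred rRoot := fun r => inferInstanceAs (Decidable (r ≠ 24 ∧ r ≠ 33))

set_option maxHeartbeats 1000000 in
/-- The centralizer of `x₃₉(1) x₄₅(1)`. -/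
theorem centralizer_mid (v : GL chevF4.Idx F)
    (hv : (v : Matrix chevF4.Idx chevF4.Idx F) = chevF4.x F 39 1 * chevF4.x F 45 1) :
    chevF4.group F ⊓ Subgroup.centralizer {v} =
      chevF4.rootSubgroup F 33 ⊔ chevF4.rootSubgroup F 14 ⊔ chevF4.rootSubgroup F 24 ⊔
        chevF4.rootSubgroup F 23 ⊔ (sysF4.{u}).genBy F cRoot := by
  set S := sysF4.{u}
  have ev : v = S.xU (rt 39 : ℕ) 1 * S.xU (rt 45 : ℕ) 1 := Units.ext (by
    rw [hv, Units.val_mul, Sys.coe_xU, Sys.coe_xU])
  set K := chevF4.rootSubgroup F 33 ⊔ chevF4.rootSubgroup F 14 ⊔ chevF4.rootSubgroup F 24 ⊔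
    chevF4.rootSubgroup F 23 ⊔ S.genBy F cRoot
  let Sl : List (Fin chevF4.nroots) := [rt 39, rt 40, rt 44, rt 45, rt 46, rt 47]
  have hA : S.Abel F Sl := abel_of_check (by decide +kernel)
  have hpos : ∀ r ∈ Sl, S.Pos r := fun r hr => by
    show chevF4.nroots / 2 ≤ (r : ℕ)
    revert r; decide +kernel
  have hnd : Sl.Nodup := by decide +kernel
  have h14 : ∀ t : F, S.xU 14 t ∈ K := fun t =>
    Subgroup.mem_sup_left (Subgroup.mem_sup_left (Subgroup.mem_sup_left (Subgroup.mem_sup_right (xU_mem_root _ _))))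
  have h23 : ∀ t : F, S.xU 23 t ∈ K := fun t =>
    Subgroup.mem_sup_left (Subgroup.mem_sup_right (xU_mem_root _ _))
  have hK' : ∀ (r : ℕ), 24 ≤ r → r < chevF4.nroots → cRoot r → ∀ t : F, S.xU r t ∈ K := fun r h1 h2 h3 t =>
    Subgroup.mem_sup_right (S.xU_mem_genBy (le_trans (by decide +kernel) h1) h2 h3 t)
  have hKle : ∀ M : Subgroup (GL chevF4.Idx F), (∀ t, S.xU 14 t ∈ M) → (∀ t, S.xU 23 t ∈ M) →
      (∀ r, 24 ≤ r → r < chevF4.nroots → cRoot r → ∀ t, S.xU r t ∈ M) → K ≤ M := by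
    intro M a b c
    refine sup_le (sup_le (sup_le (sup_le (rootSubgroup_le ?_) (rootSubgroup_le a)) (rootSubgroup_le ?_))
      (rootSubgroup_le b)) (S.genBy_le fun r h1 h2 h3 t => c r (le_trans (by decide +kernel) h1) h2 h3 t)
    · exact c 33 (by decide) (by decide +kernel) (by decide)
    · exact c 24 (by decide) (by decide +kernel) (by decide)
  have hcen : ∀ r < chevF4.nroots, ((24 ≤ r ∧ cRoot r) ∨ r = 14 ∨ r = 23) → ∀ t : F,
      S.xU r t ∈ Subgroup.centralizer ({v} : Set (GL chevF4.Idx F)) := by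
    intro r hr hr' t
    have h : ∀ r < chevF4.nroots, ((24 ≤ r ∧ cRoot r) ∨ r = 14 ∨ r = 23) →
        (39 ≠ chevF4.neg r ∧ ∀ c ∈ chevF4.commTerms r 39, r = 39 ∨ c.2.1 % 2 = 0) ∧
        (45 ≠ chevF4.neg r ∧ ∀ c ∈ chevF4.commTerms r 45, r = 45 ∨ c.2.1 % 2 = 0) := by decide +kernel
    obtain ⟨⟨a1, a2⟩, b1, b2⟩ := h r hr hr'
    refine Subgroup.mem_centralizer_singleton_iff.2 ?_
    rw [ev]
    have c1 : Commute (S.xU r t) (S.xU 39 (1 : F)) := by
      by_cases e : r = 39
      · subst e; show _ * _ = _ * _; rw [Sys.xU_add, Sys.xU_add, add_comm]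
      · exact S.comm_even hr (by decide +kernel) a1 (fun c hc => (a2 c hc).resolve_left e) t 1
    have c2 : Commute (S.xU r t) (S.xU 45 (1 : F)) := by
      by_cases e : r = 45
      · subst e; show _ * _ = _ * _; rw [Sys.xU_add, Sys.xU_add, add_comm]
      · exact S.comm_even hr (by decide +kernel) b1 (fun c hc => (b2 c hc).resolve_left e) t 1
    exact (c1.mul_right c2).eq
  have hKC : K ≤ Subgroup.centralizer ({v} : Set (GL chevF4.Idx F)) :=
    hKle _ (hcen 14 (by decide +kernel) (Or.inr (Or.inl rfl)))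
      (hcen 23 (by decide +kernel) (Or.inr (Or.inr rfl)))
      fun r h1 h2 h3 t => hcen r h2 (Or.inl ⟨h1, h3⟩) t
  have hKG : K ≤ chevF4.group F :=
    hKle _ (fun t => S.xU_mem_group _ _) (fun t => S.xU_mem_group _ _) fun r _ _ _ t => S.xU_mem_group _ _
  have hn : ∀ q ∈ [0, 3], q < chevF4.rank → ∀ t : F, S.nU (chevF4.simple q) t ∈ K := by
    intro q hq hq' t
    simp only [List.mem_cons, List.not_mem_nil, or_false] at hq
    rcases hq with rfl | rfl
    · refine S.nU_mem_of_roots (fun t => ?_) (fun t => ?_) t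
      · rw [show chevF4.simple 0 = 33 by decide +kernel]
        exact hK' 33 (by decide) (by decide +kernel) (by decide) t
      · rw [show chevF4.neg (chevF4.simple 0) = 14 by decide +kernel]; exact h14 t
    · refine S.nU_mem_of_roots (fun t => ?_) (fun t => ?_) t
      · rw [show chevF4.simple 3 = 24 by decide +kernel]
        exact hK' 24 (by decide) (by decide +kernel) (by decide) t
      · rw [show chevF4.neg (chevF4.simple 3) = 23 by decide +kernel]; exact h23 t
  refine le_antisymm (fun g hg => ?_) (le_inf hKG hKC)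
  obtain ⟨hgG, hgC⟩ := Subgroup.mem_inf.1 hg
  obtain ⟨u₁, hu₁, h, hh, m, hm, u₂, hu₂, rfl⟩ := S.centralizer_pair_form (Sl := Sl)
    (a := rt 39) (b := rt 45) hnd hpos hA (by decide +kernel) (by decide +kernel) (by decide +kernel)
    (by decide +kernel) (P := orbMid) (by decide +kernel) (by decide +kernel) (by decide +kernel) 3 2
    (fun p hp => by
      rw [lev_eq_levT, lev_eq_levT, lev_eq_levT, lev_eq_levT]
      revert p; decide +kernel)
    (J := [0, 3]) (by decide +kernel) (by decide +kernel) (K := K)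
    (fun q hq hq' => hn q hq hq' 1) hgG (ev ▸ hgC)
  -- the radical is normalised
  have hRnorm : ∀ x ∈ K, ∀ y ∈ S.genBy F rRoot, x * y * x⁻¹ ∈ S.genBy F rRoot := by
    have hgen : ∀ r < chevF4.nroots, ((24 ≤ r) ∨ r = 14 ∨ r = 23) → ∀ (t : F), ∀ y ∈ S.genBy F rRoot,
        S.xU r t * y * (S.xU r t)⁻¹ ∈ S.genBy F rRoot := by
      intro r hr hr' t y hy
      refine S.xU_conj_genBy hr ?_ t hy
      revert r; decide +kernel
    intro x hx
    have hN : K ≤ Subgroup.normalizer (S.genBy F rRoot : Set (GL chevF4.Idx F)) := by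
      have hmem : ∀ r < chevF4.nroots, ((24 ≤ r) ∨ r = 14 ∨ r = 23) → ∀ t : F,
          S.xU r t ∈ Subgroup.normalizer (S.genBy F rRoot : Set (GL chevF4.Idx F)) := by
        intro r hr hr' t
        refine Subgroup.mem_normalizer_iff.2 fun y => ⟨hgen r hr hr' t y, fun h => ?_⟩
        have := hgen r hr hr' (-t) _ h
        rw [← S.xU_inv, inv_inv] at this
        rwa [show (S.xU r t)⁻¹ * (S.xU r t * y * (S.xU r t)⁻¹) * S.xU r t = y by group] at this
      exact hKle _ (hmem 14 (by decide +kernel) (Or.inr (Or.inl rfl)))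
        (hmem 23 (by decide +kernel) (Or.inr (Or.inr rfl))) fun r h1 h2 _ t => hmem r h2 (Or.inl h1) t
    exact fun y hy => (Subgroup.mem_normalizer_iff.1 (hN hx) y).1 hy
  have hLK : S.genBy F (fun r => ¬rRoot r) ≤ K := S.genBy_le fun r h1 h2 h3 t => by
    have h : ∀ r < chevF4.nroots, ¬rRoot r → 24 ≤ r ∧ cRoot r := by decide +kernel
    exact hK' r (h r h2 h3).1 h2 (h r h2 h3).2 t
  rw [S.posUnipotent_eq] at hu₁ hu₂
  obtain ⟨a₁, ha₁, c₁, hc₁, rfl⟩ := S.exists_split rRoot le_rfl hu₁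
  obtain ⟨a₂, ha₂, c₂, hc₂, rfl⟩ := S.exists_split rRoot le_rfl hu₂
  set y := c₁ * h * m with hy
  have ha : a₁ * (y * a₂ * y⁻¹) ∈ S.genBy F rRoot := by
    refine mul_mem ha₁ ?_
    rw [hy, show c₁ * h * m * a₂ * (c₁ * h * m)⁻¹ = c₁ * (h * (m * a₂ * m⁻¹) * h⁻¹) * c₁⁻¹ by group]
    exact hRnorm c₁ (hLK hc₁) _ (S.diag_conj_genBy _ hh (hRnorm m hm _ ha₂))
  obtain ⟨s, a', ha', ea⟩ := S.exists_insert_root (k := 25) (P := fun r => rRoot r ∧ r ≠ 25)
    (fun r hr => if e : r = 25 then Or.inl e else Or.inr ⟨hr, e⟩)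
    (fun t x hx => S.xU_conj_genBy (by decide +kernel) (by decide +kernel) t hx) ha
  obtain ⟨t, b', hb', eb⟩ := S.exists_insert_root (k := 26)
    (P := fun r => rRoot r ∧ r ≠ 25 ∧ r ≠ 26)
    (fun r hr => if e : r = 26 then Or.inl e else Or.inr ⟨hr.1, hr.2, e⟩)
    (fun t x hx => S.xU_conj_genBy (by decide +kernel) (by decide +kernel) t hx) ha'
  obtain ⟨y₁, d', hd', ed⟩ := S.exists_insert_root (k := 27)
    (P := fun r => rRoot r ∧ r ≠ 25 ∧ r ≠ 26 ∧ r ≠ 27)
    (fun r hr => if e : r = 27 then Or.inl e else Or.inr ⟨hr.1, hr.2.1, hr.2.2, e⟩)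
    (fun t x hx => S.xU_conj_genBy (by decide +kernel) (by decide +kernel) t hx) hb'
  obtain ⟨z, n, hn', en⟩ := S.exists_insert_root (k := 34)
    (P := fun r => rRoot r ∧ r ≠ 25 ∧ r ≠ 26 ∧ r ≠ 27 ∧ r ≠ 34)
    (fun r hr => if e : r = 34 then Or.inl e else Or.inr ⟨hr.1, hr.2.1, hr.2.2.1, hr.2.2.2, e⟩)
    (fun t x hx => S.xU_conj_genBy (by decide +kernel) (by decide +kernel) t hx) hd'
  set X := S.xU 25 s * S.xU 26 t * S.xU 27 y₁ * S.xU 34 z with hX
  have hnK : h⁻¹ * n * h ∈ K := by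
    have h1 := S.diag_conj_genBy _ (inv_mem hh) hn'
    rw [inv_inv] at h1
    exact Subgroup.mem_sup_right (S.genBy_mono (fun r _ _ hr => by
      simp only [cRoot, List.mem_cons, List.not_mem_nil, or_false]
      omega) h1)
  have hcK : h⁻¹ * c₁ * h * (m * c₂) ∈ K := by
    refine mul_mem ?_ (mul_mem hm (hLK hc₂))
    have h1 := S.diag_conj_genBy _ (inv_mem hh) hc₁
    rw [inv_inv] at h1
    exact hLK h1
  have hg' : a₁ * c₁ * h * m * (a₂ * c₂) = X * h * (h⁻¹ * n * h * (h⁻¹ * c₁ * h * (m * c₂))) := by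
    have : a₁ * c₁ * h * m * (a₂ * c₂) = a₁ * (y * a₂ * y⁻¹) * (c₁ * h * m * c₂) := by rw [hy]; group
    rw [this, ea, eb, ed, en, hX]
    group
  have hXh : X * h ∈ Subgroup.centralizer ({v} : Set (GL chevF4.Idx F)) := by
    have := mul_mem hgC (inv_mem (hKC (mul_mem hnK hcK)))
    rwa [hg', mul_inv_cancel_right] at this
  rw [hg']
  refine mul_mem ?_ (mul_mem hnK hcK)
  rw [S.diagonalSubgroup_eq] at hh
  obtain ⟨c, rfl⟩ := hh
  simp only [MonoidHom.coe_comp, Function.comp_apply, Sys.dgHom_apply] at hXh ⊢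
  set α := (S.chi (torHom chevF4 c) 39 : F) with hα
  set β := (S.chi (torHom chevF4 c) 45 : F) with hβ
  have h1 := Subgroup.mem_centralizer_singleton_iff.1 hXh
  rw [← mul_inv_eq_iff_eq_mul, ev] at h1
  have hconj : ∀ x A B : GL chevF4.Idx F, x * (A * B) * x⁻¹ = x * A * x⁻¹ * (x * B * x⁻¹) :=
    fun x A B => by group
  have p1 : S.xU 34 z * (S.xU 39 α * S.xU 45 β) * (S.xU 34 z)⁻¹ =
      S.xU 39 α * S.xU 44 (z * α) * S.xU 45 β := by
    rw [hconj, one_term (u := 44) (r := 34) (s := 39) (by decide +kernel) (by decide +kernel) (by decide) (by decide +kernel)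
        (show chevF4.commTerms 34 39 = [(44, 1, 1, 1)] by decide +kernel) (by decide), conj_comm (r := 34) (s := 45) (by decide +kernel) (by decide +kernel) (by decide +kernel) (by decide +kernel)]
  have p2 : S.xU 27 y₁ * (S.xU 39 α * S.xU 44 (z * α) * S.xU 45 β) * (S.xU 27 y₁)⁻¹ =
      S.xU 39 α * S.xU 40 (y₁ * α) * S.xU 44 (z * α) * S.xU 45 β := by
    rw [hconj, hconj, one_term (u := 40) (r := 27) (s := 39) (by decide +kernel) (by decide +kernel) (by decide) (by decide +kernel)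
        (show chevF4.commTerms 27 39 = [(40, 1, 1, 1)] by decide +kernel) (by decide), conj_comm (r := 27) (s := 44) (by decide +kernel) (by decide +kernel) (by decide +kernel) (by decide +kernel), conj_comm (r := 27) (s := 45) (by decide +kernel) (by decide +kernel) (by decide +kernel) (by decide +kernel)]
  have p3 : S.xU 26 t * (S.xU 39 α * S.xU 40 (y₁ * α) * S.xU 44 (z * α) * S.xU 45 β) * (S.xU 26 t)⁻¹ =
      S.xU 39 α * S.xU 40 (y₁ * α) * S.xU 44 (z * α) * (S.xU 45 β * S.xU 47 (t * β)) := by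
    rw [hconj, hconj, hconj, conj_comm (r := 26) (s := 39) (by decide +kernel) (by decide +kernel) (by decide +kernel) (by decide +kernel), conj_comm (r := 26) (s := 40) (by decide +kernel) (by decide +kernel) (by decide +kernel) (by decide +kernel), conj_comm (r := 26) (s := 44) (by decide +kernel) (by decide +kernel) (by decide +kernel) (by decide +kernel), one_term (u := 47) (r := 26) (s := 45) (by decide +kernel) (by decide +kernel) (by decide) (by decide +kernel)
        (show chevF4.commTerms 26 45 = [(47, 1, 1, 1)] by decide +kernel) (by decide)]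
  have p4 : S.xU 25 s * (S.xU 39 α * S.xU 40 (y₁ * α) * S.xU 44 (z * α) * (S.xU 45 β * S.xU 47 (t * β))) *
      (S.xU 25 s)⁻¹ =
      S.xU 39 α * S.xU 40 (y₁ * α) * S.xU 44 (z * α) * (S.xU 45 β * S.xU 46 (s * β) * S.xU 47 (t * β)) := by
    rw [hconj, hconj, hconj, hconj, conj_comm (r := 25) (s := 39) (by decide +kernel) (by decide +kernel) (by decide +kernel) (by decide +kernel), conj_comm (r := 25) (s := 40) (by decide +kernel) (by decide +kernel) (by decide +kernel) (by decide +kernel), conj_comm (r := 25) (s := 44) (by decide +kernel) (by decide +kernel) (by decide +kernel) (by decide +kernel), one_term (u := 46) (r := 25) (s := 45) (by decide +kernel) (by decide +kernel) (by decide) (by decide +kernel)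
        (show chevF4.commTerms 25 45 = [(46, 1, 1, 1)] by decide +kernel) (by decide), conj_comm (r := 25) (s := 47) (by decide +kernel) (by decide +kernel) (by decide +kernel) (by decide +kernel)]
  have h2 : X * (S.xU 39 α * S.xU 45 β) * X⁻¹ =
      S.xU 39 α * S.xU 40 (y₁ * α) * S.xU 44 (z * α) * (S.xU 45 β * S.xU 46 (s * β) * S.xU 47 (t * β)) := by
    rw [← p4, ← p3, ← p2, ← p1, hX]
    group
  have h3 : X * (S.dg (torHom chevF4 c) * (S.xU (rt 39 : ℕ) 1 * S.xU (rt 45 : ℕ) 1) * (S.dg (torHom chevF4 c))⁻¹) * X⁻¹ =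
      S.xU (rt 39 : ℕ) 1 * S.xU (rt 45 : ℕ) 1 := by
    conv_rhs => rw [← h1]
    simp only [mul_assoc, _root_.mul_inv_rev]
  rw [hconj (S.dg _), S.dg_conj_xU _ (rt 39).2, S.dg_conj_xU _ (rt 45).2, mul_one, mul_one] at h3
  change X * (S.xU 39 α * S.xU 45 β) * X⁻¹ = S.xU 39 1 * S.xU 45 1 at h3
  rw [h2] at h3
  let T : Fin chevF4.nroots → F := fun r => if r = rt 39 then α else if r = rt 40 then y₁ * α
    else if r = rt 44 then z * α else if r = rt 45 then β else if r = rt 46 then s * β else t * β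
  let T' : Fin chevF4.nroots → F := fun r => if r = rt 39 ∨ r = rt 45 then 1 else 0
  have h4 : S.pairEl Sl T = S.pairEl Sl T' := by
    simp only [Sys.pairEl, Sl, T, T', List.map_cons, List.map_nil, List.prod_cons, List.prod_nil, mul_one]
    simp (decide := true) only [if_true, if_false, S.xU_zero, one_mul, mul_one]
    rw [← h3]
    simp only [mul_assoc]
  have e := S.pairEl_inj hnd hA hpos h4
  have e39 := e (rt 39) (by decide +kernel)
  have e40 := e (rt 40) (by decide +kernel)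
  have e44 := e (rt 44) (by decide +kernel)
  have e45 := e (rt 45) (by decide +kernel)
  have e46 := e (rt 46) (by decide +kernel)
  have e47 := e (rt 47) (by decide +kernel)
  simp (decide := true) only [T, T', if_true, if_false] at e39 e40 e44 e45 e46 e47
  rw [e39, mul_one] at e40 e44
  rw [e45, mul_one] at e46 e47
  rw [hX, e46, e47, e40, e44, S.xU_zero, S.xU_zero, S.xU_zero, S.xU_zero]
  simp only [one_mul]
  refine S.dg_mem_of_coords c fun j hj t => hn j ?_ j.2 t
  have hj4 : (j : ℕ) < 4 := j.2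
  have f39 : S.chi (torHom chevF4 c) 39 = 1 := Units.ext e39
  have f45 : S.chi (torHom chevF4 c) 45 = 1 := Units.ext e45
  have v39 : ∀ l : Fin chevF4.rank, chevF4.cartan (l : ℕ) 39 =
      if (l : ℕ) = 1 then -1 else if (l : ℕ) = 2 then 1 else 0 := by decide +kernel
  have v45 : ∀ l : Fin chevF4.rank, chevF4.cartan (l : ℕ) 45 =
      if (l : ℕ) = 1 then 2 else if (l : ℕ) = 2 then -1 else 0 := by decide +kernel
  let j1 : Fin chevF4.rank := ⟨1, by decide +kernel⟩
  let j2 : Fin chevF4.rank := ⟨2, by decide +kernel⟩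
  have hsplit : ∀ (s : ℕ) (hs : s < chevF4.nroots) (p q : ℤ),
      (∀ l : Fin chevF4.rank, chevF4.cartan (l : ℕ) s = if (l : ℕ) = 1 then p else if (l : ℕ) = 2 then q else 0) →
      S.chi (torHom chevF4 c) s = c j1 ^ p * c j2 ^ q := by
    intro s hs p q hv
    rw [S.chi_torHom c hs, Finset.prod_eq_mul j1 j2 (by decide +kernel)]
    · rw [hv, hv]
      simp [j1, j2]
    · intro l _ hl
      rw [hv, if_neg fun e => hl.1 (Fin.ext e), if_neg fun e => hl.2 (Fin.ext e), zpow_zero]
    · simp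
    · simp
  rw [hsplit 39 (by decide +kernel) (-1) 1 v39] at f39
  rw [hsplit 45 (by decide +kernel) 2 (-1) v45] at f45
  have c1 : c j1 = 1 := by
    have := congrArg₂ (· * ·) f39 f45
    simp only [mul_one] at this
    rw [mul_mul_mul_comm, ← _root_.zpow_add, ← _root_.zpow_add] at this
    simpa using this
  have c2 : c j2 = 1 := by simpa [c1] using f39
  simp only [List.mem_cons, List.not_mem_nil, or_false]
  by_contra hne
  push Not at hne
  rcases (by omega : (j : ℕ) = 1 ∨ (j : ℕ) = 2) with e | e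
  · exact hj (by rw [show j = j1 from Fin.ext e, c1])
  · exact hj (by rw [show j = j2 from Fin.ext e, c2])

omit [CharP F 2] in
theorem genBy_cRoot_eq : (sysF4.{u}).genBy F cRoot =
    Subgroup.closure {g : GL chevF4.Idx F | ∃ (r : ℕ) (c : F), chevF4.IsPosRoot r ∧ r ∉ [27, 25, 34, 26] ∧
      (g : Matrix chevF4.Idx chevF4.Idx F) = chevF4.x F r c} := by
  set S := sysF4.{u}
  rw [Sys.genBy]
  refine congrArg Subgroup.closure (Set.ext fun g => ⟨?_, ?_⟩)
  · rintro ⟨r, t, h1, h2, h3, rfl⟩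
    exact ⟨r, t, (S.isPos_iff r).2 ⟨h1, h2⟩, h3, rfl⟩
  · rintro ⟨r, t, hr, h3, hg⟩
    exact ⟨r, t, ((S.isPos_iff r).1 hr).1, ((S.isPos_iff r).1 hr).2, h3, S.eq_xU hg⟩

end CfsgLib.Chev.F4Pair
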