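import Cfsg.Agent.Chev.Special.RootCentralizer
import Cfsg.Agent.Chev.WeylCombi

/-!
# Centralizers of products of two commuting root elements in characteristic two

Ordered products over a list of pairwise commuting positive roots, the support of their conjugates
under monomial elements, and the Bruhat form of the elements centralizing such a product.
-/

set_option autoImplicit false
set_option linter.unusedSectionVars false

namespace CfsgLib.Chev.Sys

open Cfsg.Lie

universe u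

variable {D : ChevalleyDatum} (S : Sys.{u} D) {F : Type u} [Field F]

/-- The product of root elements along a list. -/
def pairEl (L : List (Fin D.nroots)) (t : Fin D.nroots → F) : GL D.Idx F :=
  (L.map fun r : Fin D.nroots => S.xU (r : ℕ) (t r)).prod

/-- Pairwise commuting root subgroups. -/
def Abel (F : Type u) [Field F] (L : List (Fin D.nroots)) : Prop :=
  ∀ r ∈ L, ∀ s ∈ L, ∀ a b : F, Commute (S.xU r a) (S.xU s b)

/-- A function on roots extended by zero off a list. -/
def extL (_S : Sys.{u} D) (L : List (Fin D.nroots)) (t : Fin D.nroots → F) (r : ℕ) : F :=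
  if h : r < D.nroots then (if (⟨r, h⟩ : Fin D.nroots) ∈ L then t ⟨r, h⟩ else 0) else 0

include S

theorem pairEl_zero (L : List (Fin D.nroots)) {t : Fin D.nroots → F} (h : ∀ r ∈ L, t r = 0) :
    S.pairEl L t = 1 := by
  refine List.prod_eq_one fun x hx => ?_
  obtain ⟨r, hr, rfl⟩ := List.mem_map.1 hx
  rw [h r hr, S.xU_zero]

theorem pairEl_mem {L : List (Fin D.nroots)} {K : Subgroup (GL D.Idx F)} (t : Fin D.nroots → F)
    (h : ∀ r ∈ L, S.xU r (t r) ∈ K) : S.pairEl L t ∈ K := by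
  refine Subgroup.list_prod_mem _ fun x hx => ?_
  obtain ⟨r, hr, rfl⟩ := List.mem_map.1 hx
  exact h r hr

theorem pairEl_add {L : List (Fin D.nroots)} (hA : S.Abel F L) (t t' : Fin D.nroots → F) :
    S.pairEl L t * S.pairEl L t' = S.pairEl L (t + t') := by
  induction L with
  | nil => simp [pairEl]
  | cons r L ih =>
    have hc : Commute (S.pairEl L t) (S.xU r (t' r)) := by
      refine Commute.symm (Commute.list_prod_right _ _ fun x hx => ?_)
      obtain ⟨s, hs, rfl⟩ := List.mem_map.1 hx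
      exact hA r List.mem_cons_self s (List.mem_cons_of_mem _ hs) _ _
    simp only [pairEl, List.map_cons, List.prod_cons, Pi.add_apply] at *
    rw [← ih (fun a ha b hb => hA a (List.mem_cons_of_mem _ ha) b (List.mem_cons_of_mem _ hb)),
      ← S.xU_add]
    rw [mul_assoc, ← mul_assoc _ (S.xU r (t' r)), hc.eq]
    simp only [mul_assoc]

theorem pairEl_single {L : List (Fin D.nroots)} (hL : L.Nodup) {r : Fin D.nroots} (hr : r ∈ L)
    (a : F) : S.pairEl L (Pi.single r a) = S.xU r a := by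
  induction L with
  | nil => simp at hr
  | cons s L ih =>
    rw [List.nodup_cons] at hL
    simp only [pairEl, List.map_cons, List.prod_cons]
    rcases List.mem_cons.1 hr with rfl | hr'
    · rw [Pi.single_eq_same, show (L.map fun x : Fin D.nroots => S.xU x ((Pi.single r a : Fin D.nroots → F) x)).prod = 1 from
        S.pairEl_zero L fun x hx => Pi.single_eq_of_ne (fun e : x = r => hL.1 (by rwa [e] at hx)) _, mul_one]
    · rw [Pi.single_eq_of_ne (fun e => hL.1 (by rw [e]; exact hr')), S.xU_zero, one_mul]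
      exact ih hL.2 hr'

theorem pairEl_pair {L : List (Fin D.nroots)} (hL : L.Nodup) (hA : S.Abel F L) {r s : Fin D.nroots}
    (hr : r ∈ L) (hs : s ∈ L) (a b : F) :
    S.pairEl L (Pi.single r a + Pi.single s b) = S.xU r a * S.xU s b := by
  rw [← S.pairEl_add hA, S.pairEl_single hL hr, S.pairEl_single hL hs]

theorem pairEl_filter_split (p : Fin D.nroots → Bool) {L : List (Fin D.nroots)} (hA : S.Abel F L)
    (t : Fin D.nroots → F) :
    S.pairEl L t = S.pairEl (L.filter p) t * S.pairEl (L.filter fun r => !p r) t := by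
  rw [pairEl, pairEl, pairEl, ← List.prod_append, ← List.map_append]
  refine (List.Perm.prod_eq' ((List.filter_append_perm p L).symm.map _) ?_)
  refine List.pairwise_of_forall_mem_list fun x hx y hy => ?_
  obtain ⟨r, hr, rfl⟩ := List.mem_map.1 hx
  obtain ⟨s, hs, rfl⟩ := List.mem_map.1 hy
  exact hA r hr s hs _ _

theorem map_prod_filter (f : ℕ → GL D.Idx F) (p : ℕ → Bool) :
    ∀ L : List ℕ, (∀ r ∈ L, p r = false → f r = 1) → (L.map f).prod = ((L.filter p).map f).prod := by
  intro L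
  induction L with
  | nil => simp
  | cons r L ih =>
    intro h
    have := ih fun x hx => h x (List.mem_cons_of_mem _ hx)
    cases hp : p r
    · rw [List.filter_cons_of_neg (by simp [hp]), List.map_cons, List.prod_cons,
        h r List.mem_cons_self hp, one_mul, this]
    · rw [List.filter_cons_of_pos hp, List.map_cons, List.prod_cons, List.map_cons, List.prod_cons, this]

/-- Products over commuting positive roots are ordered products. -/
theorem pairEl_eq_prodFrom {L : List (Fin D.nroots)} (hL : L.Nodup) (hA : S.Abel F L)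
    (hpos : ∀ r ∈ L, S.Pos r) (t : Fin D.nroots → F) :
    S.pairEl L t = S.prodFrom (S.extL L t) (D.nroots / 2) := by
  classical
  set z := S.extL L t
  set p : ℕ → Bool := fun r => decide (r ∈ L.map Fin.val)
  have h1 : S.prodFrom z (D.nroots / 2) =
      (((List.range' (D.nroots / 2) (D.nroots - D.nroots / 2)).filter p).map fun r => S.xU r (z r)).prod := by
    rw [prodFrom, wU, List.map_map]
    refine S.map_prod_filter _ p _ fun r _ hp => ?_
    show S.xU r (z r) = 1
    simp only [z, extL]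
    split_ifs with h1 h2
    · simp only [p, decide_eq_false_iff_not, List.mem_map, not_exists, not_and] at hp
      exact absurd rfl (hp _ h2)
    · exact S.xU_zero r
    · exact S.xU_zero r
  have h2 : ((List.range' (D.nroots / 2) (D.nroots - D.nroots / 2)).filter p).Perm (L.map Fin.val) := by
    refine (List.perm_ext_iff_of_nodup ((List.nodup_range' (s := D.nroots / 2) (n := D.nroots - D.nroots / 2)).filter _) (hL.map Fin.val_injective)).2
      fun r => ?_
    simp only [List.mem_filter, List.mem_range'_1, p, decide_eq_true_eq, and_iff_right_iff_imp]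
    intro h
    obtain ⟨s, hs, rfl⟩ := List.mem_map.1 h
    have h1 : D.nroots / 2 ≤ (s : ℕ) := hpos s hs
    have h2 := s.2
    omega
  have hz : ∀ r ∈ L, z (r : ℕ) = t r := fun r hr => by
    simp only [z, extL, r.2, dite_true, Fin.eta, if_pos hr]
  rw [h1, (List.Perm.prod_eq' (h2.map _) ?_), List.map_map]
  · exact congrArg List.prod (List.map_congr_left fun r hr => by simp [hz r hr])
  · refine List.pairwise_of_forall_mem_list fun x hx y hy => ?_
    obtain ⟨a, ha, rfl⟩ := List.mem_map.1 hx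
    obtain ⟨b, hb, rfl⟩ := List.mem_map.1 hy
    obtain ⟨r, hr, rfl⟩ := List.mem_map.1 (h2.subset ha)
    obtain ⟨s, hs, rfl⟩ := List.mem_map.1 (h2.subset hb)
    exact hA r hr s hs _ _

theorem pairEl_inj {L : List (Fin D.nroots)} (hL : L.Nodup) (hA : S.Abel F L)
    (hpos : ∀ r ∈ L, S.Pos r) {t t' : Fin D.nroots → F} (h : S.pairEl L t = S.pairEl L t') :
    ∀ r ∈ L, t r = t' r := by
  rw [S.pairEl_eq_prodFrom hL hA hpos, S.pairEl_eq_prodFrom hL hA hpos] at h
  intro r hr
  have := S.prodFrom_inj le_rfl h r (hpos r hr) r.2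
  simpa [extL, hr] using this

/-- A monomial element conjugating one product into another maps the support of the first into
the list. -/
theorem mem_of_conj_pairEl {L : List (Fin D.nroots)} (hL : L.Nodup) (hA : S.Abel F L)
    (hpos : ∀ r ∈ L, S.Pos r) {m : GL D.Idx F} {w : Equiv.Perm (Fin D.nroots)} (hm : S.Acts m w)
    {t t' : Fin D.nroots → F} (h : m * S.pairEl L t * m⁻¹ = S.pairEl L t') {a : Fin D.nroots}
    (ha : a ∈ L) (hta : t a ≠ 0) : w a ∈ L := by
  classical
  choose c hc using hm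
  let y : Fin D.nroots → F := fun r => (c (w⁻¹ r) : F) * t (w⁻¹ r)
  have himg : ∀ M : List (Fin D.nroots), m * S.pairEl M t * m⁻¹ = S.pairEl (M.map w) y := by
    intro M
    induction M with
    | nil => simp [pairEl]
    | cons r M ih =>
      have ey : y (w r) = (c r : F) * t r := by simp [y]
      simp only [pairEl, List.map_cons, List.prod_cons] at ih ⊢
      rw [← ih, ey, ← hc r (t r)]
      group
  let p : Fin D.nroots → Bool := fun r => decide (D.nroots / 2 ≤ (w r : ℕ))
  set P := L.filter p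
  set N := L.filter fun r => !p r
  have hsplit := S.pairEl_filter_split p hA t
  rw [hsplit, show m * (S.pairEl P t * S.pairEl N t) * m⁻¹ =
    m * S.pairEl P t * m⁻¹ * (m * S.pairEl N t * m⁻¹) by group, himg P] at h
  have hPpos : ∀ r ∈ P.map w, S.Pos r := by
    intro r hr
    obtain ⟨s, hs, rfl⟩ := List.mem_map.1 hr
    have := (List.mem_filter.1 hs).2
    simp only [p, decide_eq_true_eq] at this
    exact this
  have hUP : S.pairEl (P.map w) y ∈ D.posUnipotent F :=
    S.pairEl_mem _ fun r hr => S.xU_mem_posUnipotent (hPpos r hr) r.2 _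
  have hUR : S.pairEl L t' ∈ D.posUnipotent F :=
    S.pairEl_mem _ fun r hr => S.xU_mem_posUnipotent (hpos r hr) r.2 _
  have hN : m * S.pairEl N t * m⁻¹ ∈ D.posUnipotent F ⊓ D.negUnipotent F := by
    refine Subgroup.mem_inf.2 ⟨?_, ?_⟩
    · have := mul_mem (inv_mem hUP) hUR
      rwa [← h, inv_mul_cancel_left] at this
    · rw [himg N]
      refine S.pairEl_mem _ fun r hr => Subgroup.subset_closure ⟨r, _, (S.isNeg_iff _).2 ?_, rfl⟩
      obtain ⟨s, hs, rfl⟩ := List.mem_map.1 hr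
      have := (List.mem_filter.1 hs).2
      simp only [p, Bool.not_eq_true', decide_eq_false_iff_not, not_le] at this
      exact this
  rw [S.pos_inf_neg, Subgroup.mem_bot] at hN
  rw [hN, mul_one] at h
  have hN' : S.pairEl N t = 1 := by
    have := congrArg (fun g => m⁻¹ * g * m) hN
    simpa [mul_assoc] using this
  have hsub : N ⊆ L := fun r hr => List.mem_of_mem_filter hr
  have hN0 : ∀ r ∈ N, t r = 0 := fun r hr => by
    refine S.pairEl_inj (hL.filter _) (fun x hx z hz => hA x (hsub hx) z (hsub hz))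
      (fun x hx => hpos x (hsub hx)) (t' := 0) ?_ r hr
    rw [hN', S.pairEl_zero N (t := 0) fun _ _ => rfl]
  have haP : a ∈ P := by
    by_contra hnP
    refine hta (hN0 a (List.mem_filter.2 ⟨ha, ?_⟩))
    simp only [P, List.mem_filter, ha, true_and] at hnP
    simp [Bool.not_eq_true _ ▸ hnP]
  have hnd : (P.map w).Nodup := (hL.filter _).map w.injective
  have hAP : S.Abel F (P.map w) := by
    intro r hr s hs a b
    obtain ⟨r, hr', rfl⟩ := List.mem_map.1 hr
    obtain ⟨s, hs', rfl⟩ := List.mem_map.1 hs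
    have hcr : ((c r : F)) ≠ 0 := (c r).ne_zero
    have hcs : ((c s : F)) ≠ 0 := (c s).ne_zero
    have e1 := hc r ((c r : F)⁻¹ * a)
    have e2 := hc s ((c s : F)⁻¹ * b)
    rw [mul_inv_cancel_left₀ hcr] at e1
    rw [mul_inv_cancel_left₀ hcs] at e2
    rw [← e1, ← e2]
    exact ((hA r (List.mem_of_mem_filter hr') s (List.mem_of_mem_filter hs') _ _).map
      (MulAut.conj m).toMonoidHom)
  rw [S.pairEl_eq_prodFrom hnd hAP hPpos, S.pairEl_eq_prodFrom hL hA hpos] at h
  have e := S.prodFrom_inj le_rfl h (w a) (hPpos _ (List.mem_map_of_mem haP)) (w a).2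
  by_contra hwa
  have hy : y (w a) = (c a : F) * t a := by simp [y]
  simp only [extL, (w a).2, dite_true, Fin.eta, if_pos (List.mem_map_of_mem haP), if_neg hwa, hy] at e
  exact mul_ne_zero (c a).ne_zero hta e

/-- Root elements whose commutator terms vanish modulo two commute. -/
theorem comm_even [CharP F 2] {r s : ℕ} (hr : r < D.nroots) (hs : s < D.nroots) (h2 : s ≠ D.neg r)
    (h3 : ∀ c ∈ D.commTerms r s, c.2.1 % 2 = 0) (a b : F) : Commute (S.xU r a) (S.xU s b) := by
  by_cases h1 : s = r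
  · subst h1
    show _ * _ = _ * _
    rw [S.xU_add, S.xU_add, add_comm]
  refine Units.ext ?_
  rw [Units.val_mul, Units.val_mul, S.coe_xU, S.coe_xU, S.comm r s hr hs h1 h2]
  have hw : S.wU (D.commWord F r s a b) = 1 := by
    rw [wU]
    refine List.prod_eq_one fun x hx => ?_
    simp only [ChevalleyDatum.commWord, List.map_map, List.mem_map, Function.comp_apply] at hx
    obtain ⟨c, hc, rfl⟩ := hx
    have : (c.2.1 : F) = 0 := by
      rw [CharP.intCast_eq_zero_iff F 2]
      exact Int.dvd_of_emod_eq_zero (h3 c hc)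
    rw [this, zero_mul, zero_mul, S.xU_zero]
  have e := congrArg (fun g : GL D.Idx F => (g : Matrix D.Idx D.Idx F)) hw
  simp only [S.coe_wU, Units.val_one] at e
  rw [e, mul_one]

/-- A conjugate differs by a word in the roots of the nonzero commutator terms. -/
theorem conj_xU_eq {r s : ℕ} (hr : r < D.nroots) (hs : s < D.nroots) (h1 : s ≠ r) (h2 : s ≠ D.neg r)
    (a b : F) : S.xU r a * S.xU s b * (S.xU r a)⁻¹ = S.xU s b * S.wU (D.commWord F r s (-a) b) := by
  rw [S.xU_inv, mul_assoc, S.comm_wU hr hs h1 h2, ← mul_assoc, ← mul_assoc, S.xU_add,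
    add_neg_cancel, S.xU_zero, one_mul]

theorem wU_commWord_mem [CharP F 2] {r s : ℕ} {K : Subgroup (GL D.Idx F)}
    (h : ∀ c ∈ D.commTerms r s, c.2.1 % 2 ≠ 0 → ∀ x : F, S.xU c.1 x ∈ K) (a b : F) :
    S.wU (D.commWord F r s a b) ∈ K := by
  rw [wU]
  refine Subgroup.list_prod_mem _ fun x hx => ?_
  simp only [ChevalleyDatum.commWord, List.map_map, List.mem_map, Function.comp_apply] at hx
  obtain ⟨c, hc, rfl⟩ := hx
  by_cases he : c.2.1 % 2 = 0
  · have : (c.2.1 : F) = 0 := by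
      rw [CharP.intCast_eq_zero_iff F 2]
      exact Int.dvd_of_emod_eq_zero he
    rw [this, zero_mul, zero_mul, S.xU_zero]
    exact one_mem _
  · exact h c hc he _

/-- A root element normalising a subgroup generated by root elements. -/
theorem xU_conj_genBy [CharP F 2] {P : ℕ → Prop} {s : ℕ} (hs : s < D.nroots)
    (h : ∀ r < D.nroots, D.nroots / 2 ≤ r → P r → r = s ∨ (r ≠ D.neg s ∧
      ∀ c ∈ D.commTerms s r, c.2.1 % 2 ≠ 0 → D.nroots / 2 ≤ c.1 ∧ c.1 < D.nroots ∧ P c.1))
    (v : F) {g : GL D.Idx F} (hg : g ∈ S.genBy F P) :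
    S.xU s v * g * (S.xU s v)⁻¹ ∈ S.genBy F P := by
  have : S.genBy F P ≤ (S.genBy F P).comap (MulAut.conj (S.xU s v)).toMonoidHom :=
    S.genBy_le fun r h1 h2 h3 t => by
      show S.xU s v * S.xU r t * (S.xU s v)⁻¹ ∈ S.genBy F P
      rcases h r h2 h1 h3 with rfl | ⟨hne, hterm⟩
      · rw [S.xU_inv, S.xU_add, S.xU_add]
        exact S.xU_mem_genBy h1 h2 h3 _
      · by_cases hrs : r = s
        · subst hrs
          rw [S.xU_inv, S.xU_add, S.xU_add]
          exact S.xU_mem_genBy h1 h2 h3 _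
        rw [S.conj_xU_eq hs h2 hrs hne]
        exact mul_mem (S.xU_mem_genBy h1 h2 h3 t) (S.wU_commWord_mem
          (fun c hc he x => S.xU_mem_genBy (hterm c hc he).1 (hterm c hc he).2.1 (hterm c hc he).2.2 x) _ _)
  exact this hg

/-- Adjoining a root normalising the subgroup. -/
theorem exists_insert_root {P Q : ℕ → Prop} {k : ℕ}
    (hQ : ∀ r, Q r → r = k ∨ P r)
    (hn : ∀ (t : F) g, g ∈ S.genBy F P → S.xU k t * g * (S.xU k t)⁻¹ ∈ S.genBy F P)
    {g : GL D.Idx F} (hg : g ∈ S.genBy F Q) : ∃ t : F, ∃ y ∈ S.genBy F P, g = S.xU k t * y := by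
  rw [genBy] at hg
  induction hg using Subgroup.closure_induction with
  | mem y hy =>
    obtain ⟨r, t, h1, h2, h3, rfl⟩ := hy
    rcases hQ r h3 with rfl | hP
    · exact ⟨t, 1, one_mem _, (mul_one _).symm⟩
    · exact ⟨0, _, S.xU_mem_genBy h1 h2 hP t, by simp⟩
  | one => exact ⟨0, 1, one_mem _, by simp⟩
  | mul x y _ _ hx hy =>
    obtain ⟨a, y₁, hy₁, rfl⟩ := hx
    obtain ⟨b, y₂, hy₂, rfl⟩ := hy
    refine ⟨a + b, S.xU k (-b) * y₁ * (S.xU k (-b))⁻¹ * y₂, mul_mem (hn _ _ hy₁) hy₂, ?_⟩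
    rw [← S.xU_add, ← S.xU_inv]
    group
  | inv x _ hx =>
    obtain ⟨a, y₁, hy₁, rfl⟩ := hx
    refine ⟨-a, S.xU k a * y₁⁻¹ * (S.xU k a)⁻¹, hn _ _ (inv_mem hy₁), ?_⟩
    rw [← S.xU_inv]
    group

/-- The values of the characters of the torus. -/
theorem chi_torHom (c : Fin D.rank → Fˣ) {s : ℕ} (hs : s < D.nroots) :
    S.chi (torHom D c) s = ∏ l : Fin D.rank, c l ^ D.cartan (l : ℕ) s := by
  classical
  have hhz : ∀ (j : Fin D.rank) (t : Fˣ), ∀ i < D.rank,
      torHom D (Pi.mulSingle j t) i = hz D (D.simple j) t i := by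
    intro j t i hi
    show ∏ l, (Pi.mulSingle j t : Fin D.rank → Fˣ) l ^ D.cartan (l : ℕ) (D.simple i) = _
    rw [Finset.prod_eq_single j]
    · rw [Pi.mulSingle_eq_same, hz, S.cr_simple j.2]
    · intro l _ hl; rw [Pi.mulSingle_eq_of_ne hl, _root_.one_zpow]
    · simp
  conv_lhs => rw [← Finset.univ_prod_mulSingle c, map_prod]
  induction (Finset.univ : Finset (Fin D.rank)) using Finset.cons_induction with
  | empty => simp [chi]
  | cons a A ha ih =>
    rw [Finset.prod_cons, Finset.prod_cons, S.chi_mul, ih,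
      S.chi_congr (z' := hz D (D.simple a) (c a)) (fun i hi => hhz a (c a) i hi),
      S.chi_hz_simple a.2 _ hs]

/-- A torus element lies in a subgroup containing the cocharacters of the coordinates involved. -/
theorem dg_mem_of_coords {K : Subgroup (GL D.Idx F)} (c : Fin D.rank → Fˣ)
    (h : ∀ j : Fin D.rank, c j ≠ 1 → ∀ t : F, S.nU (D.simple j) t ∈ K) :
    S.dg (torHom D c) ∈ K := by
  classical
  suffices hc : c ∈ K.comap (S.dgHom.comp (torHom D)) from hc
  rw [← Finset.univ_prod_mulSingle c]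
  refine Subgroup.prod_mem _ fun j _ => ?_
  show S.dg (torHom D (Pi.mulSingle j (c j))) ∈ K
  by_cases hj : c j = 1
  · rw [hj, Pi.mulSingle_one, map_one]
    show S.dgHom 1 ∈ K
    rw [map_one]
    exact one_mem _
  · have e : S.dg (torHom D (Pi.mulSingle j (c j))) = S.hU (D.simple j) (c j : F) := by
      rw [S.hU_eq_dg (S.simple_lt j.2)]
      refine S.dg_congr fun i _ => ?_
      show ∏ l, (Pi.mulSingle j (c j) : Fin D.rank → Fˣ) l ^ _ = _
      rw [Finset.prod_eq_single_of_mem j (Finset.mem_univ _)]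
      · rw [Pi.mulSingle_eq_same, hz, S.cr_simple j.2]
      · intro l _ hl; rw [Pi.mulSingle_eq_of_ne hl, _root_.one_zpow]
    rw [e, S.hU_eq]
    exact mul_mem (h j hj _) (h j hj _)

/-- A monomial element fixing two roots with a dominant combination lies in the torus times the
subgroup of the reflections fixing both. -/
theorem mono_fix_pair {K : Subgroup (GL D.Idx F)} {J : List ℕ} (a b : Fin D.nroots) (ka kb : ℤ)
    (hdom : ∀ L : List ℕ, (∀ q ∈ L, q < D.rank) →
      ka * S.lev (S.wprod L a : Fin D.nroots) + kb * S.lev (S.wprod L b : Fin D.nroots) ≤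
        ka * S.lev a + kb * S.lev b)
    (hout : ∀ q < D.rank, q ∉ J → 0 < ka * D.cartan q a + kb * D.cartan q b)
    (hin : ∀ q ∈ J, q < D.rank → D.cartan q a = 0 ∧ D.cartan q b = 0)
    (hK : ∀ q ∈ J, q < D.rank → S.nU (D.simple q) (1 : F) ∈ K)
    {L : List ℕ} (hL : ∀ q ∈ L, q < D.rank) {h : GL D.Idx F} (hh : h ∈ D.diagonalSubgroup F)
    (ha : S.wprod L a = a) (hb : S.wprod L b = b) :
    ∃ h₁ ∈ D.diagonalSubgroup F, ∃ m ∈ K, h * S.nw F L = h₁ * m := by
  induction hlen : L.length using Nat.strong_induction_on generalizing L h with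
  | _ len ih =>
    subst hlen
    set w := S.wprod L with hw
    have hact : S.Acts (h * S.nw F L) w := by
      simpa using S.acts_mul (S.acts_diag hh) (S.acts_nw (F := F) hL)
    have hn' : h * S.nw F L ∈ D.monomialSubgroup F :=
      mul_mem (S.diag_le_mono hh) (S.nw_mem_mono hL)
    by_cases hall : ∀ r : Fin D.nroots, D.nroots / 2 ≤ (r : ℕ) → D.nroots / 2 ≤ (w r : ℕ)
    · exact ⟨_, S.mem_diag_of_pos hn' hact hall, 1, one_mem _, (mul_one _).symm⟩
    obtain ⟨g, hg⟩ := S.wprod_linear hL S.wt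
    have hgs : ∀ i (hi : i < D.rank), g i = S.lev (w ⟨D.simple i, S.simple_lt hi⟩ : Fin D.nroots) := by
      intro i hi
      have h := hg ⟨D.simple i, S.simple_lt hi⟩
      rw [← S.lev_eq, Finset.sum_eq_single_of_mem i (Finset.mem_range.2 hi) (fun j hj hne => by
        rw [S.vec_simple i hi j (Finset.mem_range.1 hj), if_neg (Ne.symm hne), mul_zero]),
        S.vec_simple i hi i hi, if_pos rfl, mul_one] at h
      exact h.symm
    obtain ⟨q, hq, hneg⟩ : ∃ q, ∃ hq : q < D.rank,
        (w ⟨D.simple q, S.simple_lt hq⟩ : ℕ) < D.nroots / 2 := by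
      by_contra hcon
      push Not at hcon
      apply hall
      intro r hr
      by_contra hneg
      have h0 := S.lev_lt_zero (not_le.1 hneg)
      rw [hw, S.lev_eq, hg r] at h0
      exact absurd h0 (not_lt.2 (Finset.sum_nonneg fun i hi => mul_nonneg
        (by rw [hgs i (Finset.mem_range.1 hi)]
            exact (S.lev_pos (Fin.is_lt _) (hcon i (Finset.mem_range.1 hi))).le)
        (S.vec_nonneg r r.2 hr i (Finset.mem_range.1 hi))))
    have hrefl : ∀ y : Fin D.nroots, w y = y →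
        S.lev ((w * S.refl q) y : Fin D.nroots) = S.lev y - D.cartan q y * g q := by
      intro y hy
      have h1 := hg y
      rw [← hw, hy] at h1
      have hyv : ((S.refl q y : Fin D.nroots) : ℕ) = S.pi q y := S.refl_apply hq y
      rw [Equiv.Perm.mul_apply, S.lev_eq, S.lev_eq, hg (S.refl q y), h1, hyv]
      rw [Finset.sum_congr rfl fun i hi => show g i * S.vec (S.pi q y) i =
          g i * S.vec y i - (if i = q then D.cartan q y * g q else 0) by
        rw [S.vec_pi q hq _ y.2 i (Finset.mem_range.1 hi)]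
        split_ifs with hiq
        · subst hiq; ring
        · ring, Finset.sum_sub_distrib, Finset.sum_ite_eq' (Finset.range D.rank) q,
        if_pos (Finset.mem_range.2 hq)]
    have hgneg : g q < 0 := by rw [hgs q hq]; exact S.lev_lt_zero hneg
    have hqJ : q ∈ J := by
      by_contra hqJ
      have h1 := hdom (L ++ [q]) fun x hx => by
        rcases List.mem_append.1 hx with hx | hx
        · exact hL x hx
        · rw [List.mem_singleton.1 hx]; exact hq
      rw [S.wprod_append, show S.wprod [q] = S.refl q by simp [wprod], ← hw, hrefl a ha, hrefl b hb] at h1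
      have := hout q hq hqJ
      nlinarith
    have hfix : ∀ y : Fin D.nroots, D.cartan q y = 0 → S.refl q y = y := fun y hy =>
      S.rv_injective (funext fun i => by
        show S.vec (S.refl q y : Fin D.nroots) i = S.vec y i
        rw [S.refl_apply hq, S.vec_pi q hq _ y.2 i i.2, hy]
        simp)
    obtain ⟨L', h1, h2, hw', h', hh', h4⟩ := S.exists_delete (F := F) hq L hL hneg
    set nq := S.nU (F := F) (D.simple q) 1
    have e : h * S.nw F L = h * h' * S.nw F L' * nq⁻¹ := by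
      rw [mul_assoc h h', ← h4]; group
    obtain ⟨h₁, hh₁, m, hm, em⟩ := ih L'.length (by omega) h1 (mul_mem hh hh')
      (by rw [hw', Equiv.Perm.mul_apply, hfix a (hin q hqJ hq).1]; exact ha)
      (by rw [hw', Equiv.Perm.mul_apply, hfix b (hin q hqJ hq).2]; exact hb) rfl
    exact ⟨h₁, hh₁, m * nq⁻¹, mul_mem hm (inv_mem (hK q hqJ hq)), by rw [e, em, mul_assoc]⟩

/-- A closed list of pairs of roots contains the orbit. -/
theorem mem_pair_orbit {P : List (ℕ × ℕ)} {a b : Fin D.nroots} (h1 : ((a : ℕ), (b : ℕ)) ∈ P)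
    (h2 : ∀ p ∈ P, ∀ q < D.rank, (D.reflectRoot q p.1, D.reflectRoot q p.2) ∈ P) :
    ∀ L : List ℕ, (∀ q ∈ L, q < D.rank) →
      (((S.wprod L a : Fin D.nroots) : ℕ), ((S.wprod L b : Fin D.nroots) : ℕ)) ∈ P := by
  intro L
  induction L with
  | nil => intro _; simpa [wprod] using h1
  | cons q L ih =>
    intro hL
    have hq : q < D.rank := hL q List.mem_cons_self
    have h := h2 _ (ih fun x hx => hL x (List.mem_cons_of_mem _ hx)) q hq
    rwa [S.wprod_cons, Equiv.Perm.mul_apply, Equiv.Perm.mul_apply, S.refl_apply hq, S.refl_apply hq,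
      S.pi_reflect q hq _ (Fin.is_lt _), S.pi_reflect q hq _ (Fin.is_lt _)]

/-- The Bruhat form of an element centralizing `x_a(1) x_b(1)`. -/
theorem centralizer_pair_form [CharP F 2] {Sl : List (Fin D.nroots)} (hnd : Sl.Nodup)
    (hpos : ∀ r ∈ Sl, S.Pos r) (hAb : S.Abel F Sl) {a b : Fin D.nroots} (hab : a ≠ b) (ha : a ∈ Sl)
    (hb : b ∈ Sl)
    (hU : ∀ r < D.nroots, D.nroots / 2 ≤ r → ∀ s ∈ Sl, r = (s : ℕ) ∨ ((s : ℕ) ≠ D.neg r ∧
      ∀ c ∈ D.commTerms r s, c.2.1 % 2 ≠ 0 → ∃ u ∈ Sl, (u : ℕ) = c.1 ∧ u ≠ a ∧ u ≠ b))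
    {P : List (ℕ × ℕ)} (hP1 : ((a : ℕ), (b : ℕ)) ∈ P)
    (hP2 : ∀ p ∈ P, ∀ q < D.rank, (D.reflectRoot q p.1, D.reflectRoot q p.2) ∈ P)
    (hP3 : ∀ p ∈ P, p.1 ∈ Sl.map Fin.val → p.2 ∈ Sl.map Fin.val → p = ((a : ℕ), (b : ℕ)))
    (ka kb : ℤ) (hP4 : ∀ p ∈ P, ka * S.lev p.1 + kb * S.lev p.2 ≤ ka * S.lev a + kb * S.lev b)
    {J : List ℕ} (hout : ∀ q < D.rank, q ∉ J → 0 < ka * D.cartan q a + kb * D.cartan q b)
    (hin : ∀ q ∈ J, q < D.rank → D.cartan q a = 0 ∧ D.cartan q b = 0)
    {K : Subgroup (GL D.Idx F)} (hK : ∀ q ∈ J, q < D.rank → S.nU (D.simple q) (1 : F) ∈ K)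
    {g : GL D.Idx F} (hgG : g ∈ D.group F)
    (hgC : g ∈ Subgroup.centralizer ({S.xU a 1 * S.xU b 1} : Set (GL D.Idx F))) :
    ∃ u₁ ∈ D.posUnipotent F, ∃ h ∈ D.diagonalSubgroup F, ∃ m ∈ K, ∃ u₂ ∈ D.posUnipotent F,
      g = u₁ * h * m * u₂ := by
  classical
  let Z : Subgroup (GL D.Idx F) :=
    { carrier := {x | ∃ δ : Fin D.nroots → F, δ a = 0 ∧ δ b = 0 ∧ x = S.pairEl Sl δ}
      one_mem' := ⟨0, rfl, rfl, (S.pairEl_zero Sl (t := 0) fun _ _ => rfl).symm⟩
      mul_mem' := fun {x y} ⟨δ, h1, h2, hx⟩ ⟨ε, h3, h4, hy⟩ => ⟨δ + ε, by simp [h1, h3], by simp [h2, h4],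
        by rw [hx, hy, S.pairEl_add hAb]⟩
      inv_mem' := fun {x} ⟨δ, h1, h2, hx⟩ => ⟨-δ, by simp [h1], by simp [h2], by
        refine inv_eq_of_mul_eq_one_right ?_
        rw [hx, S.pairEl_add hAb, add_neg_cancel, S.pairEl_zero Sl (t := 0) fun _ _ => rfl]⟩ }
  set v := S.xU (a : ℕ) (1 : F) * S.xU (b : ℕ) 1
  let Good : GL D.Idx F → Prop := fun u => ∀ s ∈ Sl, ∀ x : F, ∃ z ∈ Z, u * S.xU s x * u⁻¹ = S.xU s x * z
  have hZc : ∀ z ∈ Z, ∀ s ∈ Sl, ∀ x : F, Commute (S.xU s x) z := by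
    rintro z ⟨δ, -, -, rfl⟩ s hs x
    refine Commute.list_prod_right _ _ fun y hy => ?_
    obtain ⟨r, hr, rfl⟩ := List.mem_map.1 hy
    exact hAb s hs r hr _ _
  have hgen : ∀ r < D.nroots, D.nroots / 2 ≤ r → ∀ t : F, Good (S.xU r t) := by
    intro r hr hr' t s hs x
    rcases hU r hr hr' s hs with rfl | ⟨hne, hterm⟩
    · exact ⟨1, one_mem _, by rw [S.xU_inv, S.xU_add, S.xU_add, mul_one]; congr 1; ring⟩
    by_cases hrs : (s : ℕ) = r
    · subst hrs
      exact ⟨1, one_mem _, by rw [S.xU_inv, S.xU_add, S.xU_add, mul_one]; congr 1; ring⟩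
    refine ⟨_, S.wU_commWord_mem (fun c hc he y => ?_) _ _, S.conj_xU_eq hr s.2 hrs hne t x⟩
    obtain ⟨u, hu, e, hua, hub⟩ := hterm c hc he
    refine ⟨Pi.single u y, Pi.single_eq_of_ne (Ne.symm hua) _, Pi.single_eq_of_ne (Ne.symm hub) _, ?_⟩
    rw [S.pairEl_single hnd hu, e]
  have hconjZ : ∀ u, Good u → ∀ z ∈ Z, u * z * u⁻¹ ∈ Z := by
    rintro u hu z ⟨δ, hδa, hδb, rfl⟩
    show MulAut.conj u (S.pairEl Sl δ) ∈ Z
    rw [pairEl, map_list_prod, List.map_map]
    refine Subgroup.list_prod_mem _ fun y hy => ?_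
    obtain ⟨r, hr, rfl⟩ := List.mem_map.1 hy
    obtain ⟨z, hz, e⟩ := hu r hr (δ r)
    show u * S.xU r (δ r) * u⁻¹ ∈ Z
    rw [e]
    refine mul_mem ?_ hz
    by_cases h0 : δ r = 0
    · rw [h0, S.xU_zero]; exact one_mem _
    exact ⟨Pi.single r (δ r), Pi.single_eq_of_ne (fun e : a = r => h0 (by rwa [e] at hδa)) _,
      Pi.single_eq_of_ne (fun e : b = r => h0 (by rwa [e] at hδb)) _, (S.pairEl_single hnd hr _).symm⟩
  have hgood : ∀ u ∈ D.posUnipotent F, Good u := by
    intro u hu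
    rw [S.posUnipotent_eq, tailU] at hu
    induction hu using Subgroup.closure_induction'' with
    | mem y hy => obtain ⟨r, t, h1, h2, rfl⟩ := hy; exact hgen r h2 h1 t
    | inv_mem y hy => obtain ⟨r, t, h1, h2, rfl⟩ := hy; rw [S.xU_inv]; exact hgen r h2 h1 (-t)
    | one => intro s _ x; exact ⟨1, one_mem _, by simp⟩
    | mul p q _ _ hp hq =>
      intro s hs x
      obtain ⟨z₁, hz₁, e₁⟩ := hq s hs x
      obtain ⟨z₂, hz₂, e₂⟩ := hp s hs x
      refine ⟨z₂ * (p * z₁ * p⁻¹), mul_mem hz₂ (hconjZ p hp z₁ hz₁), ?_⟩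
      rw [show p * q * S.xU s x * (p * q)⁻¹ = p * (q * S.xU s x * q⁻¹) * p⁻¹ by group, e₁,
        ← mul_assoc (S.xU (s : ℕ) x) z₂, ← e₂]
      group
  have hconjv : ∀ u ∈ D.posUnipotent F, ∃ t : Fin D.nroots → F, t a = 1 ∧ t b = 1 ∧
      u * v * u⁻¹ = S.pairEl Sl t := by
    intro u hu
    obtain ⟨z₁, ⟨δ, hδa, hδb, hδ⟩, e₁⟩ := hgood u hu a ha 1
    obtain ⟨z₂, ⟨ε, hεa, hεb, hε⟩, e₂⟩ := hgood u hu b hb 1
    refine ⟨Pi.single a 1 + δ + (Pi.single b 1 + ε), ?_, ?_, ?_⟩
    · simp [hδa, hεa, Pi.single_eq_of_ne hab]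
    · simp [hδb, hεb, Pi.single_eq_of_ne (Ne.symm hab)]
    · rw [show u * v * u⁻¹ = u * S.xU a 1 * u⁻¹ * (u * S.xU b 1 * u⁻¹) by simp only [v]; group, e₁, e₂,
        hδ, hε, ← S.pairEl_single hnd ha (1 : F), ← S.pairEl_single hnd hb (1 : F), S.pairEl_add hAb,
        S.pairEl_add hAb, S.pairEl_add hAb]
  obtain ⟨p, hp, n, hn, p', hp', rfl⟩ := S.exists_bnb hgG
  obtain ⟨u₁, hu₁, h₁, hh₁, rfl⟩ := S.mem_borel_iff.1 hp
  obtain ⟨h₂, hh₂, u₂, hu₂, rfl⟩ := S.mem_borel_right hp'
  set n' := h₁ * n * h₂ with hn'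
  have hn'N : n' ∈ D.monomialSubgroup F :=
    mul_mem (mul_mem (S.diag_le_mono hh₁) hn) (S.diag_le_mono hh₂)
  have hC := Subgroup.mem_centralizer_singleton_iff.1 hgC
  obtain ⟨t, hta, htb, et⟩ := hconjv u₂ hu₂
  obtain ⟨t', -, -, et'⟩ := hconjv u₁⁻¹ (inv_mem hu₁)
  rw [inv_inv] at et'
  have hconj : n' * S.pairEl Sl t * n'⁻¹ = S.pairEl Sl t' := by
    rw [← et, ← et']
    have e : u₁ * h₁ * n * (h₂ * u₂) * v * (u₁ * h₁ * n * (h₂ * u₂))⁻¹ = v := by
      rw [hC, mul_inv_cancel_right]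
    conv_rhs => rw [← e]
    rw [hn']
    group
  obtain ⟨L, hL, h₀, hh₀, e⟩ := S.mem_mono_iff.1 hn'N
  have hact : S.Acts n' (S.wprod L) := by
    rw [e]; simpa using S.acts_mul (S.acts_diag hh₀) (S.acts_nw (F := F) hL)
  have hwa := S.mem_of_conj_pairEl hnd hAb hpos hact hconj ha (by rw [hta]; exact one_ne_zero)
  have hwb := S.mem_of_conj_pairEl hnd hAb hpos hact hconj hb (by rw [htb]; exact one_ne_zero)
  have hpair := hP3 _ (S.mem_pair_orbit hP1 hP2 L hL) (List.mem_map_of_mem hwa) (List.mem_map_of_mem hwb)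
  simp only [Prod.mk.injEq] at hpair
  obtain ⟨h₃, hh₃, m, hm, em⟩ := S.mono_fix_pair (K := K) a b ka kb
    (fun M hM => hP4 _ (S.mem_pair_orbit hP1 hP2 M hM)) hout hin hK hL hh₀ (Fin.ext hpair.1)
    (Fin.ext hpair.2)
  exact ⟨u₁, hu₁, h₃, hh₃, m, hm, u₂, hu₂, by rw [mul_assoc u₁ h₃ m, ← em, ← e, hn']; group⟩

end CfsgLib.Chev.Sys
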