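import Cfsg.Agent.Chev.TopPair
import Cfsg.Agent.Chev.RootChar

/-! The centralizer of an element of the root subgroup of the highest root. -/

set_option autoImplicit false

namespace CfsgLib.Chev

open Cfsg.Lie Matrix

universe u

namespace Sys

variable {D : ChevalleyDatum} (S : Sys.{u} D) {F : Type u} [Field F]

/-- `U` together with the negative fundamental root subgroups other than the `k`-th. -/
def topK (k : ℕ) : Subgroup (GL D.Idx F) :=
  D.posUnipotent F ⊔ Subgroup.closure {g | ∃ q t, q < D.rank ∧ q ≠ k ∧ g = S.xU (D.neg (D.simple q)) t}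

include S

theorem xU_simple_mem_topK {k q : ℕ} (hq : q < D.rank) (t : F) :
    S.xU (D.simple q) t ∈ S.topK (F := F) k :=
  Subgroup.mem_sup_left (S.xU_mem_posUnipotent (S.simple_pos q hq).1 (S.simple_lt hq) t)

theorem nU_simple_mem_topK {k q : ℕ} (hq : q < D.rank) (hqk : q ≠ k) (t : F) :
    S.nU (D.simple q) t ∈ S.topK (F := F) k := by
  rw [S.nU_eq]
  exact mul_mem (mul_mem (S.xU_simple_mem_topK hq t)
    (Subgroup.mem_sup_right (Subgroup.subset_closure ⟨q, _, hq, hqk, rfl⟩))) (S.xU_simple_mem_topK hq t)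

theorem pos_centralizes_top (hn : 0 < D.nroots) (t : F) :
    D.posUnipotent F ≤ Subgroup.centralizer {S.xU (D.nroots - 1) t} := by
  have htop : D.nroots - 1 < D.nroots := by omega
  have hpos : D.nroots / 2 ≤ D.nroots - 1 := by omega
  have hu : S.tailU F D.nroots = ⊥ := S.tailU_eq_bot le_rfl
  rw [S.posUnipotent_eq, Sys.tailU, Subgroup.closure_le]
  rintro _ ⟨r, a, hr, hr', rfl⟩
  refine Subgroup.mem_centralizer_singleton_iff.2 ?_
  by_cases hrt : r = D.nroots - 1
  · rw [hrt, S.xU_add, S.xU_add, add_comm]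
  · have := S.comm_tail_xU (k := D.nroots - 1) hpos hr hr' a le_rfl htop t
    rw [show D.nroots - 1 + 1 = D.nroots by omega, hu, Subgroup.mem_bot] at this
    rw [mul_inv_eq_one, mul_inv_eq_iff_eq_mul] at this
    exact this.symm

theorem xU_comm_of_commTerms {r s : ℕ} (hr : r < D.nroots) (hs : s < D.nroots) (h1 : s ≠ r)
    (h2 : s ≠ D.neg r) (h3 : D.commTerms r s = []) (a b : F) :
    S.xU r a * S.xU s b = S.xU s b * S.xU r a := by
  refine Units.ext ?_
  rw [Units.val_mul, Units.val_mul, S.coe_xU, S.coe_xU, S.comm r s hr hs h1 h2]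
  simp [ChevalleyDatum.commWord, h3, ChevalleyDatum.wordMat]

theorem topK_le_centralizer (hn : 0 < D.nroots) {k : ℕ}
    (hcomm : ∀ q < D.rank, q ≠ k → D.nroots - 1 ≠ D.neg (D.simple q) ∧
      D.nroots - 1 ≠ D.neg (D.neg (D.simple q)) ∧
      D.commTerms (D.neg (D.simple q)) (D.nroots - 1) = []) (t : F) :
    S.topK (F := F) k ≤ Subgroup.centralizer {S.xU (D.nroots - 1) t} := by
  refine sup_le (S.pos_centralizes_top hn t) ((Subgroup.closure_le _).2 ?_)
  rintro _ ⟨q, a, hq, hqk, rfl⟩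
  obtain ⟨h1, h2, h3⟩ := hcomm q hq hqk
  exact Subgroup.mem_centralizer_singleton_iff.2
    (S.xU_comm_of_commTerms (S.neg_lt (S.simple_lt hq)) (by omega) h1 h2 h3 a t)

theorem topK_le_group (k : ℕ) : S.topK (F := F) k ≤ D.group F := by
  refine sup_le S.pos_le_group ((Subgroup.closure_le _).2 ?_)
  rintro _ ⟨q, a, hq, hqk, rfl⟩
  exact S.xU_mem_group _ _

/-- A monomial element fixing the top root is a torus element times an element of `topK`. -/
theorem mono_fix_top {k : ℕ} (hn : 0 < D.nroots)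
    (hJ : ∀ q < D.rank, q ≠ k → D.cartan q (D.nroots - 1) = 0)
    (hk : 0 < D.cartan k (D.nroots - 1))
    {L : List ℕ} (hL : ∀ q ∈ L, q < D.rank) {h : GL D.Idx F} (hh : h ∈ D.diagonalSubgroup F)
    (htop : S.wprod L ⟨D.nroots - 1, by omega⟩ = ⟨D.nroots - 1, by omega⟩) :
    ∃ h₁ ∈ D.diagonalSubgroup F, ∃ m ∈ D.monomialSubgroup F, m ∈ S.topK (F := F) k ∧
      h * S.nw F L = h₁ * m := by
  induction hlen : L.length using Nat.strong_induction_on generalizing L h with
  | _ len ih =>
    subst hlen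
    set w := S.wprod L with hw
    have hact : S.Acts (h * S.nw F L) w := by
      simpa using S.acts_mul (S.acts_diag hh) (S.acts_nw (F := F) hL)
    have hn' : h * S.nw F L ∈ D.monomialSubgroup F :=
      mul_mem (S.diag_le_mono hh) (S.nw_mem_mono hL)
    by_cases hall : ∀ r : Fin D.nroots, D.nroots / 2 ≤ (r : ℕ) → D.nroots / 2 ≤ (w r : ℕ)
    · exact ⟨_, S.mem_diag_of_pos hn' hact hall, 1, one_mem _, one_mem _, (mul_one _).symm⟩
    obtain ⟨g, hg⟩ := S.wprod_linear hL S.wt
    have hgs : ∀ i (hi : i < D.rank), g i = S.lev (w ⟨D.simple i, S.simple_lt hi⟩ : Fin D.nroots) := by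
      intro i hi
      have h := hg ⟨D.simple i, S.simple_lt hi⟩
      rw [← S.lev_eq, Finset.sum_eq_single_of_mem i (Finset.mem_range.2 hi) (fun j hj hne => by
        rw [S.vec_simple i hi j (Finset.mem_range.1 hj), if_neg (Ne.symm hne), mul_zero]),
        S.vec_simple i hi i hi, if_pos rfl, mul_one] at h
      exact h.symm
    obtain ⟨q, hq, hneg⟩ : ∃ q, ∃ hq : q < D.rank,
        (w ⟨D.simple q, S.simple_lt hq⟩ : ℕ) < D.nroots / 2 := by
      by_contra hcon
      push Not at hcon
      apply hall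
      intro r hr
      by_contra hneg
      have h0 := S.lev_lt_zero (not_le.1 hneg)
      rw [hw, S.lev_eq, hg r] at h0
      exact absurd h0 (not_lt.2 (Finset.sum_nonneg fun i hi => mul_nonneg
        (by rw [hgs i (Finset.mem_range.1 hi)]
            exact (S.lev_pos (Fin.is_lt _) (hcon i (Finset.mem_range.1 hi))).le)
        (S.vec_nonneg r r.2 hr i (Finset.mem_range.1 hi))))
    let top : Fin D.nroots := ⟨D.nroots - 1, by omega⟩
    have hrefl : ∀ y : Fin D.nroots, (y : ℕ) = S.pi q (D.nroots - 1) →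
        S.lev (w y : Fin D.nroots) = S.lev (D.nroots - 1) - D.cartan q (D.nroots - 1) * g q := by
      intro y hy
      have h1 := hg top
      rw [← hw, show w top = top from htop] at h1
      rw [S.lev_eq, S.lev_eq, hg y, h1, show (top : ℕ) = D.nroots - 1 from rfl, hy]
      rw [Finset.sum_congr rfl fun i hi => show g i * S.vec (S.pi q (D.nroots - 1)) i =
          g i * S.vec (D.nroots - 1) i - (if i = q then D.cartan q (D.nroots - 1) * g q else 0) by
        rw [S.vec_pi q hq _ (by omega) i (Finset.mem_range.1 hi)]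
        split_ifs with hiq
        · subst hiq; ring
        · ring, Finset.sum_sub_distrib, Finset.sum_ite_eq' (Finset.range D.rank) q,
        if_pos (Finset.mem_range.2 hq)]
    have hgneg : g q < 0 := by rw [hgs q hq]; exact S.lev_lt_zero hneg
    have hqk : q ≠ k := by
      rintro rfl
      let y : Fin D.nroots := ⟨S.pi q (D.nroots - 1), S.pi_lt q hq _ (by omega)⟩
      have h1 := hrefl y rfl
      have h2 : S.lev (w y : Fin D.nroots) ≤ S.lev (D.nroots - 1) :=
        S.lev_le (by have := (w y).2; omega) (by omega)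
      nlinarith
    have hfix : S.pi q (D.nroots - 1) = D.nroots - 1 := by
      have hlt := S.pi_lt q hq (D.nroots - 1) (by omega)
      rcases lt_trichotomy (S.pi q (D.nroots - 1)) (D.nroots - 1) with h | h | h
      · exfalso
        have h2 := S.lev_lt h (by omega)
        rw [S.lev_eq, S.lev_eq, Finset.sum_congr rfl fun i hi => show S.wt i * S.vec (S.pi q (D.nroots - 1)) i =
          S.wt i * S.vec (D.nroots - 1) i by
            rw [S.vec_pi q hq _ (by omega) i (Finset.mem_range.1 hi), hJ q hq hqk]; simp] at h2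
        exact lt_irrefl _ h2
      · exact h
      · omega
    obtain ⟨L', h1, h2, hw', h', hh', h4⟩ := S.exists_delete (F := F) hq L hL hneg
    set nq := S.nU (F := F) (D.simple q) 1
    have hnq : nq ∈ D.monomialSubgroup F := by
      simpa using S.nU_mem_mono (F := F) (S.simple_lt hq) 1
    have e : h * S.nw F L = h * h' * S.nw F L' * nq⁻¹ := by
      rw [mul_assoc h h', ← h4]; group
    have htop' : S.wprod L' top = top := by
      have hA : S.Acts (h' * S.nw F L') (S.wprod L') := by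
        simpa using S.acts_mul (S.acts_diag hh') (S.acts_nw (F := F) h1)
      have hB : S.Acts (h' * S.nw F L') (w * S.refl q) := by
        rw [← h4]
        exact S.acts_mul (S.acts_nw (F := F) hL) (S.acts_nU hq)
      rw [S.acts_unique hA hB, Equiv.Perm.mul_apply]
      have : S.refl q top = top := Fin.ext (by rw [S.refl_apply hq]; exact hfix)
      rw [this]; exact htop
    obtain ⟨h₁, hh₁, m, hm, hm', em⟩ := ih L'.length (by omega) h1 (mul_mem hh hh') htop' rfl
    exact ⟨h₁, hh₁, m * nq⁻¹, mul_mem hm (inv_mem hnq),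
      mul_mem hm' (inv_mem (S.nU_simple_mem_topK hq hqk 1)), by rw [e, em, mul_assoc]⟩

/-- The centralizer of `x_top(1)`. -/
theorem group_inf_centralizer_top {k : ℕ} (hn : 0 < D.nroots) (hkr : k < D.rank)
    (hJ : ∀ q < D.rank, q ≠ k → D.cartan q (D.nroots - 1) = 0)
    (hk : D.cartan k (D.nroots - 1) = 1)
    (hcomm : ∀ q < D.rank, q ≠ k → D.nroots - 1 ≠ D.neg (D.simple q) ∧
      D.nroots - 1 ≠ D.neg (D.neg (D.simple q)) ∧
      D.commTerms (D.neg (D.simple q)) (D.nroots - 1) = []) :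
    D.group F ⊓ Subgroup.centralizer {S.xU (D.nroots - 1) (1 : F)} = S.topK k := by
  refine le_antisymm (fun g hg => ?_) (le_inf (S.topK_le_group k) (S.topK_le_centralizer hn hcomm 1))
  obtain ⟨hgG, hgC⟩ := Subgroup.mem_inf.1 hg
  obtain ⟨b, hb, n, hn', b', hb', rfl⟩ := S.exists_bnb hgG
  obtain ⟨u₁, hu₁, h₁, hh₁, rfl⟩ := S.mem_borel_iff.1 hb
  obtain ⟨u₂, hu₂, h₂, hh₂, rfl⟩ := S.mem_borel_iff.1 hb'
  obtain ⟨u₃, hu₃, hu₃'⟩ : ∃ u ∈ D.posUnipotent F, u₂ * h₂ = h₂ * u := by
    obtain ⟨z, rfl⟩ := S.exists_dg hh₂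
    refine ⟨_, S.dg_conj_pos (z⁻¹) hu₂, ?_⟩
    have : S.dg z⁻¹ = (S.dg z)⁻¹ := map_inv S.dgHom z
    rw [this, inv_inv]; group
  rw [hu₃'] at hgC ⊢
  have hK : S.topK (F := F) k ≤ Subgroup.centralizer {S.xU (D.nroots - 1) (1 : F)} :=
    S.topK_le_centralizer hn hcomm 1
  have hmid : h₁ * n * h₂ ∈ Subgroup.centralizer {S.xU (D.nroots - 1) (1 : F)} := by
    have := mul_mem (mul_mem (inv_mem (hK (Subgroup.mem_sup_left hu₁))) hgC)
      (inv_mem (hK (Subgroup.mem_sup_left hu₃)))
    rwa [show u₁⁻¹ * (u₁ * h₁ * n * (h₂ * u₃)) * u₃⁻¹ = h₁ * n * h₂ by group] at this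
  suffices h : h₁ * n * h₂ ∈ S.topK (F := F) k by
    rw [show u₁ * h₁ * n * (h₂ * u₃) = u₁ * (h₁ * n * h₂) * u₃ by group]
    exact mul_mem (mul_mem (Subgroup.mem_sup_left hu₁) h) (Subgroup.mem_sup_left hu₃)
  have hN : h₁ * n * h₂ ∈ D.monomialSubgroup F :=
    mul_mem (mul_mem (S.diag_le_mono hh₁) hn') (S.diag_le_mono hh₂)
  obtain ⟨L, hL, h₀, hh₀, e⟩ := S.mem_mono_iff.1 hN
  have hact : S.Acts (h₁ * n * h₂) (S.wprod L) := by
    rw [e]; simpa using S.acts_mul (S.acts_diag hh₀) (S.acts_nw (F := F) hL)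
  have htop : S.wprod L ⟨D.nroots - 1, by omega⟩ = ⟨D.nroots - 1, by omega⟩ := by
    obtain ⟨c, hc⟩ := hact ⟨D.nroots - 1, by omega⟩
    have h1 := hc 1
    rw [mul_one] at h1
    rw [Subgroup.mem_centralizer_singleton_iff.1 hmid, mul_inv_cancel_right] at h1
    refine Fin.ext (S.root_eq_of_xU ?_ (Fin.is_lt _) h1).symm
    omega
  obtain ⟨h₃, hh₃, m, -, hm, em⟩ := S.mono_fix_top hn hJ (by rw [hk]; exact one_pos) hL hh₀ htop
  rw [e, em] at hmid ⊢
  refine mul_mem ?_ hm
  have hd : h₃ ∈ Subgroup.centralizer {S.xU (D.nroots - 1) (1 : F)} := by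
    simpa using mul_mem hmid (inv_mem (hK hm))
  rw [S.diagonalSubgroup_eq] at hh₃
  obtain ⟨c, rfl⟩ := hh₃
  have hchi : S.chi (torHom D c) (D.nroots - 1) = 1 := by
    have h1 := S.dg_conj_xU (torHom D c) (r := D.nroots - 1) (by omega) (1 : F)
    rw [mul_one] at h1
    have h2 := Subgroup.mem_centralizer_singleton_iff.1 hd
    simp only [MonoidHom.coe_comp, Function.comp_apply, dgHom_apply] at h2
    rw [h2, mul_inv_cancel_right] at h1
    exact Units.ext (by rw [Units.val_one]; exact S.coef_one (by omega) h1)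
  have hsingle : ∀ (j : Fin D.rank) (t : Fˣ), torHom D (Pi.mulSingle j t) = fun i => t ^ D.cartan (j : ℕ) (D.simple i) := by
    intro j t
    funext i
    show ∏ l, (Pi.mulSingle j t : Fin D.rank → Fˣ) l ^ D.cartan (l : ℕ) (D.simple i) = _
    rw [Finset.prod_eq_single j]
    · rw [Pi.mulSingle_eq_same]
    · intro l _ hl; rw [Pi.mulSingle_eq_of_ne hl, _root_.one_zpow]
    · simp
  have hhz : ∀ (j : Fin D.rank) (t : Fˣ), ∀ i < D.rank,
      torHom D (Pi.mulSingle j t) i = hz D (D.simple j) t i := by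
    intro j t i hi
    rw [hsingle, ← S.chi_simple (hz D (D.simple j) t) hi, S.chi_hz_simple j.2 t (S.simple_lt hi)]
  have hcj : ∀ j : Fin D.rank, (j : ℕ) = k → c j = 1 := by
    intro j hj
    have : S.chi (torHom D c) (D.nroots - 1) = c j := by
      conv_lhs => rw [← Finset.univ_prod_mulSingle c, map_prod]
      have hmul : ∀ (A : Finset (Fin D.rank)), S.chi (∏ l ∈ A, torHom D (Pi.mulSingle l (c l)))
          (D.nroots - 1) = ∏ l ∈ A, c l ^ D.cartan (l : ℕ) (D.nroots - 1) := by
        intro A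
        induction A using Finset.cons_induction with
        | empty => simp [chi]
        | cons a A ha ih =>
          rw [Finset.prod_cons, Finset.prod_cons, S.chi_mul, ih,
            S.chi_congr (z' := hz D (D.simple a) (c a)) (fun i hi => hhz a (c a) i hi),
            S.chi_hz_simple a.2 _ (by omega)]
      rw [hmul, Finset.prod_eq_single j]
      · rw [hj, hk, zpow_one]
      · intro l _ hl
        rw [hJ l l.2 (fun h => hl (Fin.ext (h.trans hj.symm))), zpow_zero]
      · simp
    rw [← this, hchi]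
  suffices hc : c ∈ (S.topK (F := F) k).comap (S.dgHom.comp (torHom D)) from hc
  rw [← Finset.univ_prod_mulSingle c]
  refine Subgroup.prod_mem _ fun j _ => ?_
  show S.dg (torHom D (Pi.mulSingle j (c j))) ∈ S.topK (F := F) k
  rw [S.dg_congr (fun i hi => hhz j (c j) i hi), ← S.hU_eq_dg (S.simple_lt j.2)]
  by_cases hj : (j : ℕ) = k
  · rw [hcj j hj, S.hU_eq_dg (S.simple_lt j.2)]
    have : hz D (D.simple j) (1 : Fˣ) = 1 := by funext i; simp [hz]
    rw [this, show S.dg (1 : ℕ → Fˣ) = 1 from map_one S.dgHom]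
    exact one_mem _
  · rw [S.hU_eq]
    exact mul_mem (S.nU_simple_mem_topK j.2 hj _) (S.nU_simple_mem_topK j.2 hj _)

end Sys

end CfsgLib.Chev
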